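import Cfsg.Agent.H410.BR.OmInst
import Cfsg.Agent.H76.Num
import Cfsg.Agent.H377.Sign
import Cfsg.Agent.H377.Types
import Cfsg.Agent.H955.QClass
import Cfsg.Agent.ClassicalGeometry.WittQuad

/-!
# A `3`-group of isometries with fixed space a given hyperbolic plane (helper990, S4933)

`V` of dimension `8`, minus type, `q ≡ 2` modulo `3`, `x`, `y` singular, not orthogonal: a Sylow `3`-subgroup `R` of the
group of the isometries fixing `x` and `y` satisfies `C_V(R) = ⟨x, y⟩`.
-/

set_option autoImplicit false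
set_option linter.unusedSectionVars false

namespace Cfsg.Agent.H990.HT.O8

open Module QuadraticMap Cfsg Cfsg.Agent.H2.Pol Cfsg.Agent.H674.BR Cfsg.Agent.H410.BR
open Cfsg.Agent.LieClassical Cfsg.Agent.LieClassical.OrthCore

variable {F V : Type} [Field F] [Fintype F] [AddCommGroup V] [Module F V] [FiniteDimensional F V]
  {Q : QuadraticForm F V}

/-- the orthogonal complement of two vectors -/
def cp (Q : QuadraticForm F V) (x y : V) : Submodule F V :=
  LinearMap.ker (polarBilin Q x) ⊓ LinearMap.ker (polarBilin Q y)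

omit [Fintype F] [FiniteDimensional F V] in
theorem mem_cp {x y v : V} : v ∈ cp Q x y ↔ polar Q x v = 0 ∧ polar Q y v = 0 := by
  rw [cp, Submodule.mem_inf, LinearMap.mem_ker, LinearMap.mem_ker]
  rfl

variable {x y : V}

omit [Fintype F] [FiniteDimensional F V] in
/-- the decomposition -/
theorem exists_dec (hx : Q x = 0) (hy : Q y = 0) (hxy : polar Q x y ≠ 0) (v : V) :
    ∃ a b : F, ∃ u ∈ cp Q x y, v = a • x + b • y + u := by
  have hyx : polar Q y x ≠ 0 := by rwa [polar_comm]
  refine ⟨polar Q y v / polar Q x y, polar Q x v / polar Q x y,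
    v - ((polar Q y v / polar Q x y) • x + (polar Q x v / polar Q x y) • y), ?_, by abel⟩
  rw [mem_cp]
  have e1 : polar Q x x = 0 := polar_self_of_sing hx
  have e2 : polar Q y y = 0 := polar_self_of_sing hy
  have e3 : polar Q y x = polar Q x y := polar_comm _ _ _
  rw [polar_sub_right, polar_sub_right, polar_add_right, polar_add_right, polar_smul_right, polar_smul_right,
    polar_smul_right, polar_smul_right, e1, e2, e3, smul_zero, smul_zero, zero_add, add_zero, smul_eq_mul, smul_eq_mul,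
    div_mul_cancel₀ _ hxy, div_mul_cancel₀ _ hxy, sub_self, sub_self]
  exact ⟨rfl, rfl⟩

omit [Fintype F] [FiniteDimensional F V] in
theorem linInd (hx : Q x = 0) (hy : Q y = 0) (hxy : polar Q x y ≠ 0) {u : V} (hu : u ∈ cp Q x y) (hu0 : u ≠ 0) :
    LinearIndependent F ![x, y, u] := by
  rw [Fintype.linearIndependent_iff]
  intro g hg
  rw [Fin.sum_univ_three] at hg
  have hg' : g 0 • x + g 1 • y + g 2 • u = 0 := hg
  obtain ⟨hu1, hu2⟩ := mem_cp.1 hu
  have e1 : polar Q x x = 0 := polar_self_of_sing hx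
  have e2 : polar Q y y = 0 := polar_self_of_sing hy
  have e3 : polar Q y x = polar Q x y := polar_comm _ _ _
  have h1 := congrArg (polar Q x) hg'
  have h2 := congrArg (polar Q y) hg'
  rw [polar_add_right, polar_add_right, polar_smul_right, polar_smul_right, polar_smul_right, e1, hu1, smul_zero,
    smul_zero, zero_add, add_zero, polar_zero_right, smul_eq_mul] at h1
  rw [polar_add_right, polar_add_right, polar_smul_right, polar_smul_right, polar_smul_right, e2, e3, hu2, smul_zero,
    smul_zero, add_zero, add_zero, polar_zero_right, smul_eq_mul] at h2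
  have g1 : g 1 = 0 := (mul_eq_zero.1 h1).resolve_right hxy
  have g0 : g 0 = 0 := (mul_eq_zero.1 h2).resolve_right hxy
  rw [g0, g1, zero_smul, zero_smul, zero_add, zero_add, smul_eq_zero] at hg'
  have g2 : g 2 = 0 := hg'.resolve_right hu0
  intro i
  fin_cases i
  · exact g0
  · exact g1
  · exact g2

/-- **transitivity** on the vectors of the same norm orthogonal to `x` and `y` -/
theorem exists_trans (hQ : Nondeg Q) (hx : Q x = 0) (hy : Q y = 0) (hxy : polar Q x y ≠ 0) {u u' : V} (hu : u ∈ cp Q x y)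
    (hu0 : u ≠ 0) (hu' : u' ∈ cp Q x y) (hu0' : u' ≠ 0) (h : Q u = Q u') :
    ∃ g : V ≃ₗ[F] V, g ∈ O Q ∧ g x = x ∧ g y = y ∧ g u = u' := by
  obtain ⟨hu1, hu2⟩ := mem_cp.1 hu
  obtain ⟨hu1', hu2'⟩ := mem_cp.1 hu'
  have hu3 : polar Q u x = 0 := by rw [polar_comm, hu1]
  have hu4 : polar Q u y = 0 := by rw [polar_comm, hu2]
  have hu3' : polar Q u' x = 0 := by rw [polar_comm, hu1']
  have hu4' : polar Q u' y = 0 := by rw [polar_comm, hu2']
  obtain ⟨g, hg, hgi⟩ := Cfsg.Agent.ClassicalGeometry.WittQuad.extend_family Q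
    (Cfsg.Agent.H377.nondegenerate_of_nondeg hQ) 3 ![x, y, u] ![x, y, u'] (linInd hx hy hxy hu hu0)
    (linInd hx hy hxy hu' hu0') (fun i => by
      fin_cases i
      · rfl
      · rfl
      · exact h) (fun i j => by
      show polar Q _ _ = polar Q _ _
      have e : polar Q u u = polar Q u' u' := by rw [polar_self', polar_self', h]
      fin_cases i <;> fin_cases j <;> simp [hu1, hu2, hu1', hu2', hu3, hu4, hu3', hu4', e])
  exact ⟨g, hg, hgi 0, hgi 1, hgi 2⟩

/-- the number of vectors of given nonzero norm, minus type -/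
theorem count_minus {F V : Type*} [Field F] [Finite F] [AddCommGroup V] [Module F V] [FiniteDimensional F V]
    {Q : QuadraticForm F V} {m : ℕ} (hm : 3 ≤ m) (hV : Module.finrank F V = 2 * m) (hQ : Nondeg Q)
    (hP : ¬ Cfsg.Agent.H955.IsPlus Q) (c : F) (hc : c ≠ 0) :
    Nat.card {u : V // Q u = c} = Nat.card F ^ (2 * m - 1) + Nat.card F ^ (m - 1) := by
  have : Fintype F := Fintype.ofFinite F
  rcases Cfsg.Agent.H377.classify_all (by omega) hV Q hQ with ⟨e, he⟩ | ⟨ζ, hζ, e, he⟩
  · refine absurd ((Cfsg.Agent.H955.isPlus_plus m).of_equiv e fun u => ?_) hP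
    rw [he u, Cfsg.Agent.LieClassical.QuadForms.coe_plusForm]
  · obtain ⟨k, rfl⟩ : ∃ k, m = k + 1 := ⟨m - 1, by omega⟩
    have h0 := (Cfsg.Agent.H76.Num.minusCount hζ k (by omega)).ne_zero c hc
    rw [← h0]
    have he' : ∀ u : (Fin k ⊕ Fin k) ⊕ Fin 2 → F, Q (e u) = Cfsg.Agent.LieClassical.OrthForms.minusForm k F 1 ζ u := by
      intro u
      rw [Cfsg.Agent.LieClassical.OrthForms.coe_minusForm]
      exact he u
    exact Nat.card_congr ⟨fun u => ⟨e.symm u.1, by
        have h1 := he' (e.symm u.1)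
        have h2 : e (e.symm u.1) = u.1 := e.apply_symm_apply u.1
        rw [h2, u.2] at h1
        exact h1.symm⟩, fun u => ⟨e u.1, (he' u.1).trans u.2⟩, fun u => Subtype.ext (e.apply_symm_apply u.1),
      fun u => Subtype.ext (e.symm_apply_apply u.1)⟩

omit [Fintype F] in
theorem finrank_cp (hd : finrank F V = 8) (hx : Q x = 0) (hy : Q y = 0) (hxy : polar Q x y ≠ 0) :
    finrank F (cp Q x y) = 6 := by
  have e1 : polar Q x x = 0 := polar_self_of_sing hx
  have e2 : polar Q y y = 0 := polar_self_of_sing hy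
  have e3 : polar Q y x = polar Q x y := polar_comm _ _ _
  let φ : V →ₗ[F] F × F := (polarBilin Q x).prod (polarBilin Q y)
  have hk : LinearMap.ker φ = cp Q x y := LinearMap.ker_prod _ _
  have hs : LinearMap.range φ = ⊤ := by
    rw [eq_top_iff]
    rintro ⟨a, b⟩ -
    refine ⟨(a / polar Q x y) • y + (b / polar Q x y) • x, ?_⟩
    show (polar Q x _, polar Q y _) = (a, b)
    rw [polar_add_right, polar_add_right, polar_smul_right, polar_smul_right, polar_smul_right, polar_smul_right, e1, e2,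
      e3, smul_zero, smul_zero, zero_add, add_zero, smul_eq_mul, smul_eq_mul, div_mul_cancel₀ _ hxy,
      div_mul_cancel₀ _ hxy]
  have h1 := LinearMap.finrank_range_add_finrank_ker φ
  rw [hs, hk, finrank_top, hd, Module.finrank_prod, Module.finrank_self] at h1
  omega

omit [Fintype F] in
theorem nondeg_cp (hQ : Nondeg Q) (hx : Q x = 0) (hy : Q y = 0) (hxy : polar Q x y ≠ 0) :
    Nondeg (Q.comp (cp Q x y).subtype) := by
  intro u hu
  apply Subtype.ext
  apply hQ
  intro v
  obtain ⟨a, b, w, hw, rfl⟩ := exists_dec hx hy hxy v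
  obtain ⟨h1, h2⟩ := mem_cp.1 u.2
  have h3 : polar Q (u : V) w = 0 := hu ⟨w, hw⟩
  rw [polar_add_right, polar_add_right, polar_smul_right, polar_smul_right, h3, polar_comm _ (u : V) x, h1,
    polar_comm _ (u : V) y, h2, smul_zero, smul_zero, add_zero, add_zero]

theorem not_plus (h : Typ Q 3 2) (hx : Q x = 0) (hy : Q y = 0) (hxy : polar Q x y ≠ 0) :
    ¬ Cfsg.Agent.H955.IsPlus (Q.comp (cp Q x y).subtype) := by
  rintro ⟨U, hU, hd⟩
  rw [finrank_cp (by rw [h.dim]) hx hy hxy] at hd
  set U' : Submodule F V := U.map (cp Q x y).subtype with hU'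
  have hfU : finrank F U' = 3 := by
    rw [hU', Submodule.finrank_map_subtype_eq]
    omega
  have hle : U' ≤ cp Q x y := Submodule.map_subtype_le _ _
  have hsing : ∀ u ∈ U', Q u = 0 := by
    rintro _ ⟨u, hu, rfl⟩
    exact hU u hu
  have hx0 : x ≠ 0 := by
    rintro rfl
    exact hxy (polar_zero_left _ _)
  have hxU : x ∉ U' := fun hx' => hxy (by
    rw [polar_comm]
    exact (mem_cp.1 (hle hx')).2)
  have hinf : U' ⊓ F ∙ x = ⊥ := by
    rw [eq_bot_iff]
    rintro z ⟨hz1, hz2⟩
    obtain ⟨a, rfl⟩ := Submodule.mem_span_singleton.1 hz2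
    by_cases ha : a = 0
    · rw [ha, zero_smul]
      exact Submodule.zero_mem _
    · exact absurd ((Submodule.smul_mem_iff _ ha).1 hz1) hxU
  have hT : (quadPol Q).TI (U' ⊔ F ∙ x) := by
    apply ti_of_sing
    intro z hz
    obtain ⟨u, hu, z', hz', rfl⟩ := Submodule.mem_sup.1 hz
    obtain ⟨a, rfl⟩ := Submodule.mem_span_singleton.1 hz'
    rw [Q_add, hsing u hu, QuadraticMap.map_smul, hx, smul_zero, polar_smul_right, polar_comm, (mem_cp.1 (hle hu)).1,
      smul_zero, add_zero, add_zero]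
  have h1 := h.index hT
  have h2 := Submodule.finrank_sup_add_finrank_inf_eq U' (F ∙ x)
  rw [hinf, finrank_bot, hfU, finrank_span_singleton hx0] at h2
  omega

/-- **the counting** -/
theorem dvd_count (h : Typ Q 3 2) (hq : Nat.card F % 3 = 2) (hx : Q x = 0) (hy : Q y = 0) (hxy : polar Q x y ≠ 0)
    (c : F) : 3 ∣ Nat.card {u : V // u ≠ 0 ∧ u ∈ cp Q x y ∧ Q u = c} := by
  classical
  have hV : Finite V := Module.finite_of_finite F
  have hft : Fintype F := Fintype.ofFinite F
  set W := cp Q x y with hW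
  have hfW : finrank F W = 6 := finrank_cp (by rw [h.dim]) hx hy hxy
  set q := Nat.card F with hqd
  have hc : ∀ c : F, c ≠ 0 → Nat.card {u : W // (Q.comp W.subtype) u = c} = q ^ 5 + q ^ 2 := fun c hc =>
    count_minus (m := 3) le_rfl (by rw [hfW]) (nondeg_cp h.nondeg hx hy hxy) (not_plus h hx hy hxy) c hc
  have hz : (q : ZMod 3) = -1 := by
    have h1 : (q : ZMod 3) = ((q % 3 : ℕ) : ZMod 3) := (ZMod.natCast_mod q 3).symm
    rw [h1, hq]
    decide
  have hc3 : ∀ c : F, c ≠ 0 → ((Nat.card {u : W // (Q.comp W.subtype) u = c} : ℕ) : ZMod 3) = 0 := by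
    intro c h1
    rw [hc c h1]
    push_cast
    rw [hz]
    decide
  have hsum : ∑ c : F, ((Nat.card {u : W // (Q.comp W.subtype) u = c} : ℕ) : ZMod 3) = 1 := by
    rw [← Nat.cast_sum]
    have h1 : ∑ c : F, Nat.card {u : W // (Q.comp W.subtype) u = c} = q ^ 6 := by
      rw [← Nat.card_sigma, Nat.card_congr (Equiv.sigmaFiberEquiv (Q.comp W.subtype)), Module.natCard_eq_pow_finrank (K := F),
        hfW]
    rw [h1]
    push_cast
    rw [hz]
    decide
  have hc0 : ((Nat.card {u : W // (Q.comp W.subtype) u = 0} : ℕ) : ZMod 3) = 1 := by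
    rw [← Finset.add_sum_erase _ _ (Finset.mem_univ (0 : F)), Finset.sum_eq_zero (fun c hc' =>
      hc3 c (Finset.ne_of_mem_erase hc')), add_zero] at hsum
    exact hsum
  rw [← ZMod.natCast_eq_zero_iff]
  by_cases h0 : c = 0
  · subst h0
    have h1 : Nat.card {u : W // (Q.comp W.subtype) u = 0} = Nat.card {u : V // u ≠ 0 ∧ u ∈ cp Q x y ∧ Q u = 0} + 1 := by
      rw [← Finite.card_option]
      refine Nat.card_congr ⟨fun u => if hu : (u.1 : V) = 0 then none else some ⟨u.1.1, hu, u.1.2, u.2⟩,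
        fun o => o.elim ⟨0, by simp⟩ fun u => ⟨⟨u.1, u.2.2.1⟩, u.2.2.2⟩, fun u => ?_, fun o => ?_⟩
      · by_cases hu : (u.1 : V) = 0
        · simp only [hu, dif_pos, Option.elim]
          exact Subtype.ext (Subtype.ext hu.symm)
        · simp only [hu, dif_neg, not_false_iff, Option.elim]
      · cases o with
        | none => simp
        | some u =>
          have hu : u.1 ≠ 0 := u.2.1
          simp [hu]
    rw [h1] at hc0
    push_cast at hc0
    have := add_right_cancel (hc0.trans (zero_add (1 : ZMod 3)).symm)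
    exact this
  · have h1 : Nat.card {u : V // u ≠ 0 ∧ u ∈ cp Q x y ∧ Q u = c} = Nat.card {u : W // (Q.comp W.subtype) u = c} := by
      refine Nat.card_congr ⟨fun u => ⟨⟨u.1, u.2.2.1⟩, u.2.2.2⟩, fun u => ⟨u.1.1, fun hu => h0 ?_, u.1.2, u.2⟩,
        fun u => rfl, fun u => rfl⟩
      have h2 := u.2
      rw [← h2]
      show Q (u.1 : V) = 0
      rw [hu, QuadraticMap.map_zero]
    rw [h1]
    exact hc3 c h0

/-- **A `3`-group of isometries with fixed space `⟨x, y⟩`.** -/
theorem exists_three (h : Typ Q 3 2) (hq : Nat.card F % 3 = 2) (hx : Q x = 0) (hy : Q y = 0) (hxy : polar Q x y ≠ 0) :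
    ∃ R : Subgroup (V ≃ₗ[F] V), IsPGroup 3 R ∧ R ≤ O Q ∧ (∀ g ∈ R, g x = x ∧ g y = y) ∧
      ∀ v : V, (∀ g ∈ R, g v = v) → ∃ a b : F, v = a • x + b • y := by
  classical
  have hV : Finite V := Module.finite_of_finite F
  have : Fact (Nat.Prime 3) := ⟨Nat.prime_three⟩
  have hfin : Finite (V ≃ₗ[F] V) := Finite.of_injective (fun g : V ≃ₗ[F] V => (g : V → V)) DFunLike.coe_injective
  let A : Subgroup (V ≃ₗ[F] V) :=
    { carrier := {g | g ∈ O Q ∧ g x = x ∧ g y = y}
      one_mem' := ⟨(O Q).one_mem, rfl, rfl⟩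
      mul_mem' := fun {g k} hg hk => ⟨(O Q).mul_mem hg.1 hk.1, by
        rw [LinearEquiv.mul_apply, hk.2.1, hg.2.1], by rw [LinearEquiv.mul_apply, hk.2.2, hg.2.2]⟩
      inv_mem' := fun {g} hg => ⟨(O Q).inv_mem hg.1, by
        apply g.injective
        rw [hg.2.1]
        exact g.apply_symm_apply x, by
        apply g.injective
        rw [hg.2.2]
        exact g.apply_symm_apply y⟩ }
  have hA : ∀ g, g ∈ A ↔ g ∈ O Q ∧ g x = x ∧ g y = y := fun g => Iff.rfl
  let P : Sylow 3 A := default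
  refine ⟨(P : Subgroup A).map A.subtype, P.isPGroup'.map _, ?_, ?_, ?_⟩
  · rintro _ ⟨g, hg, rfl⟩
    exact g.2.1
  · rintro _ ⟨g, hg, rfl⟩
    exact g.2.2
  · intro v hv
    obtain ⟨a, b, u, hu, rfl⟩ := exists_dec hx hy hxy v
    by_cases hu0 : u = 0
    · exact ⟨a, b, by rw [hu0, add_zero]⟩
    exfalso
    -- the orbit of `u`
    have horb : MulAction.orbit A u = {u' : V | u' ≠ 0 ∧ u' ∈ cp Q x y ∧ Q u' = Q u} := by
      ext u'
      constructor
      · rintro ⟨g, rfl⟩
        show g.1 u ≠ 0 ∧ g.1 u ∈ cp Q x y ∧ Q (g.1 u) = Q u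
        obtain ⟨hg1, hg2, hg3⟩ := g.2
        obtain ⟨h1, h2⟩ := mem_cp.1 hu
        refine ⟨fun h0 => hu0 (g.1.injective (h0.trans (map_zero _).symm)), mem_cp.2 ⟨?_, ?_⟩, hg1 u⟩
        · have := polar_map hg1 x u
          rw [hg2, h1] at this
          exact this
        · have := polar_map hg1 y u
          rw [hg3, h2] at this
          exact this
      · rintro ⟨h1, h2, h3⟩
        obtain ⟨g, hg1, hg2, hg3, hg4⟩ := exists_trans h.nondeg hx hy hxy hu hu0 h2 h1 h3.symm
        exact ⟨⟨g, hg1, hg2, hg3⟩, hg4⟩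
    have hdvd : 3 ∣ (MulAction.stabilizer A u).index := by
      rw [MulAction.index_stabilizer, horb]
      exact dvd_count h hq hx hy hxy (Q u)
    have hle : (P : Subgroup A) ≤ MulAction.stabilizer A u := by
      intro g hg
      rw [MulAction.mem_stabilizer_iff]
      show g.1 u = u
      have h1 := hv g.1 ⟨g, hg, rfl⟩
      rw [map_add, map_add, LinearEquiv.map_smul, LinearEquiv.map_smul, g.2.2.1, g.2.2.2] at h1
      exact add_left_cancel h1
    have h1 := Subgroup.index_dvd_of_le hle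
    exact P.not_dvd_index (hdvd.trans h1)

end Cfsg.Agent.H990.HT.O8
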